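import Cfsg.Agent.H159.RIM.Push
import Cfsg.Agent.H37.NX.TripNum

/-!
# S4816, layer (B), route B: a Sylow-invariant character over a central character (helper159)

`exists_inv_over`: `Z ≤ K` central in `H`, `K` normal, `ν` a linear character of `Z`, `R` an `r`-subgroup of `H` and
`r ∤ |K : Z|`: some irreducible character of `K` over `ν` is invariant under `R`.
-/

set_option autoImplicit false
set_option linter.unusedSectionVars false
set_option linter.style.haveILetI false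

open Cfsg

namespace Cfsg.Agent.H159.RIM

open Cfsg.Agent.Characters.Core Cfsg.Agent.Characters.Clifford Cfsg.Agent.H672
open Cfsg.Agent.H672.RM (over_lin_iff tw tw_apply tw_apply' tw_one tw_mul isIrr_tw charDegree_tw conj_mem_of_mem)
open Cfsg.Agent.H692.Rel Cfsg.Agent.H697.Rel
open Cfsg.Agent.H586.GW (center_normal)

universe u

section
variable {H : Type u} [Group H] [Finite H] {K : Subgroup H} [hK : K.Normal]

theorem mem_normalizer_of_normal (g : H) : g ∈ Subgroup.normalizer (K : Set H) := by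
  rw [Subgroup.mem_normalizer_iff]
  intro k
  refine ⟨fun h => hK.conj_mem k h g, fun h => ?_⟩
  have h1 := hK.conj_mem _ h g⁻¹
  have h2 : g⁻¹ * (g * k * g⁻¹) * g⁻¹⁻¹ = k := by group
  rwa [h2] at h1

theorem exists_inv_over {r : ℕ} [hr : Fact r.Prime] {Z R : Subgroup H} (hZ : Z ≤ Subgroup.center H) (hZK : Z ≤ K)
    (ν : Z →* ℂˣ) (hR : IsPGroup r R) (hd : ¬ r ∣ Z.relIndex K) :
    ∃ θ : K → ℂ, IsIrrCharacter K θ ∧ (∀ z (hz : z ∈ Z), θ ⟨z, hZK hz⟩ = θ 1 * ν ⟨z, hz⟩) ∧ R ≤ inertia K θ := by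
  classical
  letI := Fintype.ofFinite K
  haveI := finite_irr (G := K)
  letI := Fintype.ofFinite (IrrCharacter K)
  let Z' : Subgroup K := Z.subgroupOf K
  have hZ' : Z' ≤ Subgroup.center K := by
    intro z hz
    rw [Subgroup.mem_center_iff]
    intro y
    exact Subtype.ext (Subgroup.mem_center_iff.1 (hZ hz) y)
  haveI : Z'.Normal := center_normal Z' hZ'
  let σ : K →* K ⧸ Z' := QuotientGroup.mk' Z'
  have hs : Function.Surjective σ := QuotientGroup.mk'_surjective Z'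
  have hker : σ.ker = Z' := QuotientGroup.ker_mk' _
  have hkZ : ∀ x : σ.ker, ((x : K) : H) ∈ Z := fun x => by
    have h1 : (x : K) ∈ Z' := hker.le x.2
    exact h1
  let l : σ.ker →* ℂˣ := ν.comp ((K.subtype.comp σ.ker.subtype).codRestrict Z (fun x => hkZ x))
  have hlv : ∀ x, l x = ν ⟨((x : K) : H), hkZ x⟩ := fun _ => rfl
  have hsum := sum_degree hs (by rw [hker]; exact hZ') l
  let s : Finset (Σ _ : IrrCharacter K, ℕ) :=
    (irrOver σ.ker l).sigma (fun χ => Finset.range (charDegree (χ : K → ℂ) ^ 2))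
  have hcard : s.card = Z.relIndex K := by
    rw [Finset.card_sigma]
    simp only [Finset.card_range]
    rw [hsum]
    rfl
  have hmem : ∀ x : Σ _ : IrrCharacter K, ℕ, x ∈ s ↔ Ov σ.ker l (x.1 : K → ℂ) ∧ x.2 < charDegree (x.1 : K → ℂ) ^ 2 := by
    intro x
    rw [Finset.mem_sigma, mem_over, Finset.mem_range]
  let X : Type u := {x : Σ _ : IrrCharacter K, ℕ // x ∈ s}
  have hact : ∀ (g : H) (x : X),
      (⟨⟨tw K g⁻¹ (x.1.1 : K → ℂ), isIrr_tw (mem_normalizer_of_normal _) x.1.1.2⟩, x.1.2⟩ : Σ _ : IrrCharacter K, ℕ) ∈ s := by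
    intro g x
    obtain ⟨h1, h2⟩ := (hmem x.1).1 x.2
    rw [hmem]
    refine ⟨?_, ?_⟩
    · intro k z
      show tw K g⁻¹ (x.1.1 : K → ℂ) (k * (z : K)) = tw K g⁻¹ (x.1.1 : K → ℂ) k * l z
      rw [tw_apply' (mem_normalizer_of_normal g⁻¹) _ k ⟨g⁻¹ * k * g⁻¹⁻¹, hK.conj_mem _ k.2 g⁻¹⟩ rfl,
        tw_apply' (mem_normalizer_of_normal g⁻¹) _ (k * (z : K)) (⟨g⁻¹ * k * g⁻¹⁻¹, hK.conj_mem _ k.2 g⁻¹⟩ * (z : K)) ?_, h1]
      show (g⁻¹ * k * g⁻¹⁻¹) * ((z : K) : H) = g⁻¹ * ((k : H) * ((z : K) : H)) * g⁻¹⁻¹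
      have h3 := Subgroup.mem_center_iff.1 (hZ (hkZ z)) g⁻¹⁻¹
      rw [mul_assoc (g⁻¹ * (k : H)), h3]
      simp only [mul_assoc]
    · show x.1.2 < charDegree (tw K g⁻¹ (x.1.1 : K → ℂ)) ^ 2
      rw [charDegree_tw (mem_normalizer_of_normal _)]
      exact h2
  letI : MulAction R X :=
    { smul := fun g x => ⟨_, hact g x⟩
      one_smul := by
        intro x
        apply Subtype.ext
        show (⟨⟨tw K ((1 : R) : H)⁻¹ (x.1.1 : K → ℂ), _⟩, x.1.2⟩ : Σ _ : IrrCharacter K, ℕ) = x.1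
        refine Sigma.ext (Subtype.ext ?_) HEq.rfl
        show tw K ((1 : R) : H)⁻¹ (x.1.1 : K → ℂ) = _
        rw [Subgroup.coe_one, inv_one, tw_one]
      mul_smul := by
        intro g h x
        apply Subtype.ext
        refine Sigma.ext (Subtype.ext ?_) HEq.rfl
        show tw K ((g * h : R) : H)⁻¹ (x.1.1 : K → ℂ) = tw K (g : H)⁻¹ (tw K (h : H)⁻¹ (x.1.1 : K → ℂ))
        rw [← tw_mul (mem_normalizer_of_normal _) (mem_normalizer_of_normal _), Subgroup.coe_mul, mul_inv_rev] }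
  haveI : Finite X := Finite.of_fintype _
  have hmod := hR.card_modEq_card_fixedPoints X
  have hX : Nat.card X = Z.relIndex K := by
    rw [← hcard, Nat.card_eq_fintype_card, Fintype.card_coe]
  have hne : Nonempty (MulAction.fixedPoints R X) := by
    by_contra hcon
    rw [not_nonempty_iff] at hcon
    have h0 : Nat.card (MulAction.fixedPoints R X) = 0 := Nat.card_of_isEmpty
    rw [h0, hX] at hmod
    exact hd ((Nat.modEq_zero_iff_dvd).1 hmod)
  obtain ⟨⟨x, hx⟩⟩ := hne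
  refine ⟨x.1.1, x.1.1.2, ?_, ?_⟩
  · intro z hz
    have h1 := ((hmem x.1).1 x.2).1 1 ⟨⟨z, hZK hz⟩, by
      rw [hker]
      exact hz⟩
    rw [one_mul] at h1
    exact h1
  · intro g hg
    have h1 : (⟨g⁻¹, R.inv_mem hg⟩ : R) • x = x := hx _
    have h2 : (((⟨g⁻¹, R.inv_mem hg⟩ : R) • x : X).1.1 : K → ℂ) = (x.1.1 : K → ℂ) := by rw [h1]
    have h3 : tw K (g⁻¹)⁻¹ (x.1.1 : K → ℂ) = (x.1.1 : K → ℂ) := h2
    rw [inv_inv] at h3
    rw [mem_inertia_iff]
    intro n
    have h4 := congrFun h3 n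
    rwa [tw_apply (mem_normalizer_of_normal g)] at h4

end

end Cfsg.Agent.H159.RIM
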