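import Cfsg.Agent.H159.RIM.InvOver
import Cfsg.Agent.H20.RIM.AS
import Cfsg.Agent.SmallSimple.Simple168
import Cfsg.Agent.S0494

/-!
# S4816, layer (B), route B: `P2Kill` (helper159)

`H / K` simple of order `60` or `168`, `H` perfect, all characters of `H` over `φ` of degree prime to `3`, `r ∤ |K : Z(H)|`
with `r = 5`, `7`: impossible. A Sylow `r`-subgroup fixes a character `θ` of `K` over an extension of `φ` to `Z(H)`; the
inertia group `T` of `θ` contains a Sylow `3`-subgroup too, and over `θ` there are at most three characters.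
-/

set_option autoImplicit false
set_option linter.unusedSectionVars false
set_option linter.style.haveILetI false

open Cfsg

namespace Cfsg.Agent.H159.RIM

open Cfsg.Agent.Characters.Core Cfsg.Agent.Characters.Clifford Cfsg.Agent.H672
open Cfsg.Agent.H672.RM (over_lin_iff)
open Cfsg.Agent.H692.Rel Cfsg.Agent.H697.Rel
open Cfsg.Agent.H229.RIM
open Cfsg.Agent.H586.GW
open Cfsg.Agent.H37.NW (exists_triple')
open Cfsg.Agent.H37.NX (no_triple card_over_le)
open Cfsg.Agent.H696.RIM (exists_ext_cen)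

universe u

/-! ### order 60 -/

/-- at most three squares of divisors of `60` prime to `3` do not add up to `60` -/
theorem three_squares_sixty {ι : Type*} (s : Finset ι) (f : ι → ℕ) (hs : s.card ≤ 3)
    (h1 : ∀ i ∈ s, f i ∣ 60) (h3 : ∀ i ∈ s, ¬ 3 ∣ f i) (hsum : ∑ i ∈ s, f i ^ 2 = 60) : False := by
  classical
  have hval : ∀ i ∈ s, f i ^ 2 ≤ 60 := by
    intro i hi
    rw [← hsum]
    exact Finset.single_le_sum (f := fun i => f i ^ 2) (fun _ _ => Nat.zero_le _) hi
  have key : ∀ i ∈ s, f i ^ 2 = 1 ∨ f i ^ 2 = 4 ∨ f i ^ 2 = 16 ∨ f i ^ 2 = 25 := by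
    intro i hi
    have h4 := h1 i hi
    have h5 := h3 i hi
    have h6 := hval i hi
    have h7 : f i ≤ 7 := by nlinarith
    generalize f i = d at *
    interval_cases d <;> omega
  have h4 : s.card = 0 ∨ s.card = 1 ∨ s.card = 2 ∨ s.card = 3 := by omega
  rcases h4 with h4 | h4 | h4 | h4
  · rw [Finset.card_eq_zero] at h4
    subst h4
    rw [Finset.sum_empty] at hsum
    omega
  · obtain ⟨a, rfl⟩ := Finset.card_eq_one.1 h4
    rw [Finset.sum_singleton] at hsum
    have := key a (by simp)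
    omega
  · obtain ⟨a, b, hab, rfl⟩ := Finset.card_eq_two.1 h4
    rw [Finset.sum_pair hab] at hsum
    have := key a (by simp)
    have := key b (by simp)
    omega
  · obtain ⟨a, b, c, hab, hac, hbc, rfl⟩ := Finset.card_eq_three.1 h4
    rw [Finset.sum_insert (by simp [hab, hac]), Finset.sum_pair hbc] at hsum
    have := key a (by simp)
    have := key b (by simp)
    have := key c (by simp)
    omega

theorem no_triple_sixty {T C : Type*} [Group T] [Finite T] [Group C] [Finite C] {σ : C →* T}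
    (hs : Function.Surjective σ) {Z : Subgroup C} (hZ : σ.ker = Z)
    (hc : Z ≤ Subgroup.center C) (l : Z →* ℂˣ)
    (hdeg : ∀ χ : C → ℂ, IsIrrCharacter C χ → Ov Z l χ → ¬ 3 ∣ charDegree χ)
    (ht : Nat.card T = 60)
    (hcen : ∃ y : T, orderOf y = 3 ∧ Nat.card (Subgroup.centralizer ({y} : Set T)) ≤ 3) : False := by
  classical
  subst hZ
  letI := Fintype.ofFinite C
  haveI := finite_irr (G := C)
  letI := Fintype.ofFinite (IrrCharacter C)
  obtain ⟨y, hy, hyc⟩ := hcen
  have h1 := card_over_le hs hc l (by norm_num : Nat.Prime 3) hdeg ⟨1, by rw [hy, pow_one]⟩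
  have h2 := sum_degree hs hc l
  rw [ht] at h2
  refine three_squares_sixty (irrOver σ.ker l) (fun χ => charDegree (χ : C → ℂ)) (h1.trans hyc) ?_ ?_ h2
  · intro χ _
    have h3 := Cfsg.Agent.H596.charDegree_dvd_index χ.2 σ.ker
      (fun a ha b _ => (Subgroup.mem_center_iff.1 (hc ha) b).symm)
    have h4 : σ.ker.index = Nat.card T := by
      rw [Subgroup.index_ker, MonoidHom.range_eq_top.2 hs, Subgroup.card_top]
    rwa [h4, ht] at h3
  · intro χ hχ
    exact hdeg χ χ.2 (mem_over.1 hχ)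

/-- a three-cycle in `A₅` -/
def cyc3 : alternatingGroup (Fin 5) :=
  ⟨Equiv.swap 0 1 * Equiv.swap 1 2, by
    rw [Equiv.Perm.mem_alternatingGroup]
    decide⟩

theorem cyc3_order : orderOf cyc3 = 3 := by
  have : Fact (Nat.Prime 3) := ⟨by norm_num⟩
  refine orderOf_eq_prime ?_ ?_
  · apply Subtype.ext
    show (Equiv.swap (0 : Fin 5) 1 * Equiv.swap 1 2) ^ 3 = 1
    decide
  · intro h
    have h1 : (Equiv.swap (0 : Fin 5) 1 * Equiv.swap 1 2) = 1 := congrArg Subtype.val h
    revert h1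
    decide

theorem cyc3_cent : Fintype.card {g : alternatingGroup (Fin 5) // g * cyc3 = cyc3 * g} = 3 := by
  decide +kernel

theorem exists_three_sixty {S : Type*} [Group S] [Finite S] [IsSimpleGroup S] (hS : Nat.card S = 60) :
    ∃ y : S, orderOf y = 3 ∧ Nat.card (Subgroup.centralizer ({y} : Set S)) ≤ 3 := by
  obtain ⟨e⟩ := Cfsg.Agent.S0494.result hS
  refine ⟨e.symm cyc3, ?_, ?_⟩
  · rw [MulEquiv.orderOf_eq, cyc3_order]
  · rw [← cyc3_cent, ← Nat.card_eq_fintype_card]
    refine Nat.card_le_card_of_injective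
      (fun g : Subgroup.centralizer ({e.symm cyc3} : Set S) => (⟨e g, ?_⟩ : {g : alternatingGroup (Fin 5) // g * cyc3 = cyc3 * g})) ?_
    · have h1 := Subgroup.mem_centralizer_singleton_iff.1 g.2
      have h2 := congrArg e h1
      rwa [map_mul, map_mul, MulEquiv.apply_symm_apply] at h2
    · intro a b h
      have h1 : e a = e b := congrArg Subtype.val h
      exact Subtype.ext (e.injective h1)

/-! ### the triple -/

/-- A character triple whose quotient is (isomorphic to) `B`: a central extension of `B` -/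
theorem exists_cen_ext {p : ℕ} [hp : Fact p.Prime] {T B : Type u} [Group T] [Finite T] [Group B] [Finite B]
    (π1 : T →* B) (hπ1 : Function.Surjective π1) (N : Subgroup T) [hN : N.Normal] (hNk : N = π1.ker)
    {χ : N → ℂ} (hχ : IsIrrCharacter N χ) (hinv : inertia N χ = ⊤) (hrelN : RelP p N.subtype χ) :
    ∃ (Q : Type u) (_ : Group Q) (_ : Finite Q) (g : Q →* B) (Z : Subgroup Q) (l : Z →* ℂˣ),
      Function.Surjective g ∧ g.ker = Z ∧ Z ≤ Subgroup.center Q ∧
        ∀ χ : Q → ℂ, IsIrrCharacter Q χ → Ov Z l χ → ¬ p ∣ charDegree χ := by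
  classical
  obtain ⟨Δ, Q, _, _, _, π, m, Z, l, hπ, hm, hcomap, hZc, hrel, -⟩ := exists_triple' (p := p) N hχ hinv
  have hmem : ∀ x : Δ, π x ∈ N ↔ m x ∈ Z := fun x => by
    rw [← Subgroup.mem_comap, hcomap, Subgroup.mem_comap]
  have hrelZ := hrel hrelN
  have hkm : m.ker ≤ (π1.comp π).ker := by
    intro x hx
    rw [MonoidHom.mem_ker]
    show π1 (π x) = 1
    rw [← MonoidHom.mem_ker, ← hNk, hmem, MonoidHom.mem_ker.1 hx]
    exact Z.one_mem
  let g : Q →* B := m.liftOfSurjective hm ⟨π1.comp π, hkm⟩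
  have hg : ∀ x, g (m x) = π1 (π x) := fun x => MonoidHom.liftOfRightInverse_comp_apply _ _ _ _ _
  refine ⟨Q, _, inferInstance, g, Z, l, ?_, ?_, hZc, ?_⟩
  · intro y
    obtain ⟨t, rfl⟩ := hπ1 y
    obtain ⟨x, rfl⟩ := hπ t
    exact ⟨m x, hg x⟩
  · ext y
    obtain ⟨x, rfl⟩ := hm y
    rw [MonoidHom.mem_ker, hg, ← MonoidHom.mem_ker, ← hNk, hmem]
  · intro χ hχ hovχ hd
    refine hrelZ χ hχ ?_ ?_
    · rw [over_lin_iff Z.subtype (fun z => hZc z.2) hχ]
      intro z
      have h1 := hovχ 1 z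
      rwa [one_mul] at h1
    · rw [charDegree_lf, mul_one]
      exact hd

theorem not_index_dvd_four {S : Type u} [Group S] [Finite S] [IsSimpleGroup S] (hS : Nat.card S = 60) {T : Subgroup S}
    (hT : T.index ∣ 4) : T = ⊤ := by
  by_contra hne
  have h1 : T.normalCore = ⊥ := by
    rcases (inferInstance : T.normalCore.Normal).eq_bot_or_eq_top with h | h
    · exact h
    · exact absurd (top_le_iff.1 (h.symm.le.trans T.normalCore_le)) hne
  have h2 : Nat.card S ∣ T.index.factorial := by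
    have h3 : (MulAction.toPermHom S (S ⧸ T)).ker = ⊥ := by rw [← Subgroup.normalCore_eq_ker, h1]
    have h4 := Subgroup.card_dvd_of_injective (MulAction.toPermHom S (S ⧸ T)) ((MonoidHom.ker_eq_bot_iff _).1 h3)
    rwa [Nat.card_perm] at h4
  have h3 : T.index.factorial ∣ 24 := by
    have h4 : T.index ≤ 4 := Nat.le_of_dvd (by norm_num) hT
    exact Nat.factorial_dvd_factorial h4
  rw [hS] at h2
  have h4 := h2.trans h3
  omega

/-- **the main step** -/
theorem p2_core {H S : Type u} [Group H] [Finite H] [Group S] [Finite S] [IsSimpleGroup S] {K N : Subgroup H} [hK : K.Normal]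
    {φ : N →* ℂˣ} (mk : H →* S) (hmk : Function.Surjective mk) (hker : mk.ker = K)
    (hN : N ≤ Subgroup.center H) (hZK : Subgroup.center H ≤ K)
    (bad : ∀ χ : H → ℂ, IsIrrCharacter H χ → (∀ n : N, χ n = χ 1 * φ n) → ¬ 3 ∣ charDegree χ)
    (h : (Nat.card S = 60 ∧ ¬ 5 ∣ (Subgroup.center H).relIndex K) ∨
      (Nat.card S = 168 ∧ ¬ 7 ∣ (Subgroup.center H).relIndex K)) : False := by
  classical
  haveI : Fact (Nat.Prime 3) := ⟨by norm_num⟩
  obtain ⟨ν, hν⟩ := exists_ext_cen (C := Subgroup.center H) le_rfl hN φ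
  obtain ⟨r, hr, hrd, hcase⟩ : ∃ r : ℕ, r.Prime ∧ ¬ r ∣ (Subgroup.center H).relIndex K ∧
      ((Nat.card S = 60 ∧ r = 5) ∨ (Nat.card S = 168 ∧ r = 7)) := by
    rcases h with ⟨h1, h2⟩ | ⟨h1, h2⟩
    · exact ⟨5, by norm_num, h2, Or.inl ⟨h1, rfl⟩⟩
    · exact ⟨7, by norm_num, h2, Or.inr ⟨h1, rfl⟩⟩
  haveI : Fact r.Prime := ⟨hr⟩
  obtain ⟨R⟩ : Nonempty (Sylow r H) := inferInstance
  obtain ⟨θ, hθ, hθν, hRθ⟩ := exists_inv_over (K := K) le_rfl hZK ν R.isPGroup' hrd
  -- the relative degrees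
  have hrelK : RelP 3 K.subtype θ := by
    intro χ hχ hovχ hd
    refine bad χ hχ ?_ ((dvd_mul_right 3 _).trans hd)
    have hNK : N ≤ K := hN.trans hZK
    have h1 : Over (Subgroup.inclusion hNK) θ (lf φ) := by
      rw [over_lin_iff (Subgroup.inclusion hNK) (fun n => by
        rw [Subgroup.mem_center_iff]
        intro y
        exact Subtype.ext (Subgroup.mem_center_iff.1 (hN n.2) y)) hθ]
      intro n
      have h2 := hθν n (hN n.2)
      rw [hν n n.2] at h2
      exact h2
    have h2 : Over (K.subtype.comp (Subgroup.inclusion hNK)) χ (lf φ) :=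
      (over_comp_iff K.subtype (Subgroup.inclusion hNK) (isIrr_isCharacter hχ) (isIrr_lf φ)).2 ⟨θ, hθ, hovχ, h1⟩
    exact (over_lin_iff (K.subtype.comp (Subgroup.inclusion hNK)) (fun n => hN n.2) hχ φ).1 h2
  obtain ⟨T, hT⟩ : ∃ T : Subgroup H, T = inertia K θ := ⟨_, rfl⟩
  have hKT : K ≤ T := by
    rw [hT]
    exact le_inertia (isIrr_isClassFunction hθ)
  have h3T : ¬ 3 ∣ T.index := by
    rw [hT]
    exact RelP.not_dvd_index K hθ hrelK
  have hrT : ¬ r ∣ T.index := by
    intro hd
    have h1 : ¬ r ∣ (R : Subgroup H).index := R.not_dvd_index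
    apply h1
    refine hd.trans (Subgroup.index_dvd_of_le ?_)
    rw [hT]
    exact hRθ
  -- the quotient
  let B : Subgroup S := T.map mk
  have hBi : B.index = T.index := Subgroup.index_map_eq T hmk (by rw [hker]; exact hKT)
  have hBc : Nat.card B * T.index = Nat.card S := by rw [← hBi]; exact Subgroup.card_mul_index B
  let π1 : T →* B := (mk.comp T.subtype).codRestrict B (fun x => ⟨x, x.2, rfl⟩)
  have hπ1 : Function.Surjective π1 := by
    rintro ⟨_, x, hx, rfl⟩
    exact ⟨⟨x, hx⟩, rfl⟩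
  let K' : Subgroup T := K.subgroupOf T
  have hK' : K' = π1.ker := by
    ext x
    rw [Subgroup.mem_subgroupOf, MonoidHom.mem_ker, ← hker, MonoidHom.mem_ker]
    exact ⟨fun h => Subtype.ext h, fun h => congrArg Subtype.val h⟩
  let e : K' ≃* K := Subgroup.subgroupOfEquivOfLe hKT
  have hrel1 : RelP 3 ((Subgroup.inclusion hKT).comp e.toMonoidHom) (θ ∘ e) :=
    relP_equiv _ e (RelP.inertia K hθ hrelK T hT hKT)
  have hrel2 : RelP 3 K'.subtype (θ ∘ e) := by
    have h1 : (Subgroup.inclusion hKT).comp e.toMonoidHom = K'.subtype := rfl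
    rwa [h1] at hrel1
  have hθ' : IsIrrCharacter K' (θ ∘ e) := isIrr_comp e.toMonoidHom e.surjective hθ
  have hinv : inertia K' (θ ∘ e) = ⊤ := by
    rw [eq_top_iff]
    intro g _
    rw [mem_inertia_iff]
    intro n
    have h1 : (g : H) ∈ inertia K θ := by rw [← hT]; exact g.2
    have h2 := mem_inertia_iff.1 h1 (e n)
    exact h2
  obtain ⟨Q, _, _, g, Z, l, hgs, hgZ, hZc, hdeg⟩ := exists_cen_ext π1 hπ1 K' hK' hθ' hinv hrel2
  have hcent : ∀ y : B, Nat.card (Subgroup.centralizer ({y} : Set B)) ≤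
      Nat.card (Subgroup.centralizer ({(y : S)} : Set S)) := by
    intro y
    refine Nat.card_le_card_of_injective
      (fun g : Subgroup.centralizer ({y} : Set B) => (⟨((g : B) : S), ?_⟩ : Subgroup.centralizer ({(y : S)} : Set S))) ?_
    · have h1 := Subgroup.mem_centralizer_singleton_iff.1 g.2
      rw [Subgroup.mem_centralizer_singleton_iff]
      exact congrArg Subtype.val h1
    · intro a b h
      have h1 : ((a : B) : S) = ((b : B) : S) := congrArg (fun z : Subgroup.centralizer ({(y : S)} : Set S) => (z : S)) h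
      exact Subtype.ext (Subtype.ext h1)
  rcases hcase with ⟨h60, rfl⟩ | ⟨h168, rfl⟩
  · have h1 : T.index ∣ 4 := by
      have h2 : T.index ∣ 60 := by rw [← h60, ← hBc]; exact dvd_mul_left _ _
      have h3 : T.index.Coprime 15 := by
        rw [show (15 : ℕ) = 3 * 5 by norm_num]
        exact Nat.Coprime.mul_right (((Nat.Prime.coprime_iff_not_dvd (by norm_num)).2 h3T).symm)
          (((Nat.Prime.coprime_iff_not_dvd (by norm_num)).2 hrT).symm)
      exact h3.dvd_of_dvd_mul_right (by rw [show 4 * 15 = 60 by norm_num]; exact h2)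
    have hB : B = ⊤ := not_index_dvd_four h60 (by rw [hBi]; exact h1)
    obtain ⟨y, hy, hyc⟩ := exists_three_sixty h60
    have hyB : y ∈ B := by rw [hB]; trivial
    refine no_triple_sixty hgs hgZ hZc l hdeg (by rw [hB, Subgroup.card_top, h60]) ⟨⟨y, hyB⟩, ?_, (hcent _).trans hyc⟩
    rw [← Subgroup.orderOf_coe]
    exact hy
  · have h1 : T.index ∣ 8 := by
      have h2 : T.index ∣ 168 := by rw [← h168, ← hBc]; exact dvd_mul_left _ _
      have h3 : T.index.Coprime 21 := by
        rw [show (21 : ℕ) = 3 * 7 by norm_num]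
        exact Nat.Coprime.mul_right (((Nat.Prime.coprime_iff_not_dvd (by norm_num)).2 h3T).symm)
          (((Nat.Prime.coprime_iff_not_dvd (by norm_num)).2 hrT).symm)
      exact h3.dvd_of_dvd_mul_right (by rw [show 8 * 21 = 168 by norm_num]; exact h2)
    refine no_triple hgs hgZ hZc l hdeg ?_ ?_ ?_
    · obtain ⟨d, hd⟩ := h1
      have hpos : 0 < T.index := Nat.pos_of_ne_zero Subgroup.FiniteIndex.index_ne_zero
      rw [h168] at hBc
      refine ⟨d, Nat.eq_of_mul_eq_mul_right hpos ?_⟩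
      rw [hBc]
      calc 168 = 21 * 8 := by norm_num
        _ = 21 * (T.index * d) := by rw [← hd]
        _ = 21 * d * T.index := by ring
    · rw [← h168, ← hBc]
      exact dvd_mul_right _ _
    · intro y hy
      refine (hcent y).trans ?_
      rw [Cfsg.Agent.SmallSimple.Simple168.card_centralizer_three h168 (y : S) (by rw [Subgroup.orderOf_coe]; exact hy)]

/-- **`P2Kill`** -/
theorem p2_kill : Cfsg.Agent.H20.RIM.P2Kill.{u} := by
  intro H _ _ K N _ φ hsimp hN hZK _ _ bad h
  haveI := hsimp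
  exact p2_core (QuotientGroup.mk' K) (QuotientGroup.mk'_surjective K) (QuotientGroup.ker_mk' K) hN hZK bad h

end Cfsg.Agent.H159.RIM
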