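import Cfsg.Agent.H696.RIM.Red
import Cfsg.Agent.H696.RIM.RowR
import Cfsg.Agent.H37.NW.Cov
import Cfsg.Agent.H37.NX.Top
import Cfsg.Agent.H20.NX.Basic

/-!
# S4816, case A: the push-up (helper159)

`push` : `H` perfect, `N ≤ F ≤ K`, `K / F` central in `H / F`, `ψ` an `H`-invariant irreducible character of `F` over
`φ`, all characters of `H` over `φ` of degree prime to `p`: then the simple group `H / K` does not satisfy `NBall p`.
-/

set_option autoImplicit false
set_option linter.unusedSectionVars false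
set_option linter.style.haveILetI false

open Cfsg

namespace Cfsg.Agent.H159.RIM

open Cfsg.Agent.Characters.Core Cfsg.Agent.Characters.Clifford Cfsg.Agent.H672
open Cfsg.Agent.H672.RM (over_lin_iff)
open Cfsg.Agent.H229.RIM Cfsg.Agent.H665.RIM
open Cfsg.Agent.H586.GW
open Cfsg.Agent.H37.NW (exists_triple')
open Cfsg.Agent.H37.NX (IM comm_central)
open Cfsg.Agent.H696.RIM (exists_ext_cen resL resL_apply bad_resL)
open scoped commutatorElement

universe u

/-- **the central case** -/
theorem not_bad_cen {p : ℕ} [hp : Fact p.Prime] (him : IM.{u} p) {E S : Type u} [Group E] [Finite E] [Group S] [Finite S]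
    [IsSimpleGroup S] (na : ¬ IsMulCommutative S) (pS : p ∣ Nat.card S) (hNB : NBall.{u} p S)
    (perf : commutator E = ⊤) (π0 : E →* S) (hπ0 : Function.Surjective π0) (hC : π0.ker ≤ Subgroup.center E)
    (pC : ¬ p ∣ Nat.card π0.ker) {N : Subgroup E} (hN : N ≤ π0.ker) {φ : N →* ℂˣ} (bad : Bad p N φ) : False := by
  classical
  let C : Subgroup E := π0.ker
  obtain ⟨l, hl⟩ := exists_ext_cen (C := C) hC hN φ
  let K : Subgroup E := l.ker.map C.subtype
  have hKC : K ≤ C := Subgroup.map_subtype_le _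
  haveI hK : K.Normal := center_normal K (hKC.trans hC)
  let q : E →* E ⧸ K := QuotientGroup.mk' K
  have hq : Function.Surjective q := QuotientGroup.mk'_surjective K
  have hq1 : ∀ x, q x = 1 ↔ x ∈ K := fun x => QuotientGroup.eq_one_iff x
  let π : E ⧸ K →* S := QuotientGroup.lift K π0 hKC
  have hπq : ∀ x, π (q x) = π0 x := fun _ => rfl
  have hπ : Function.Surjective π := by
    intro y
    obtain ⟨x, rfl⟩ := hπ0 y
    exact ⟨q x, rfl⟩
  have hker : ∀ x, q x ∈ π.ker ↔ x ∈ C := by
    intro x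
    rw [MonoidHom.mem_ker, hπq]
    exact Iff.rfl
  have hcen : π.ker ≤ Subgroup.center (E ⧸ K) := by
    intro y hy
    obtain ⟨x, rfl⟩ := hq y
    rw [hker] at hy
    rw [Subgroup.mem_center_iff]
    intro z
    obtain ⟨z, rfl⟩ := hq z
    rw [← map_mul, ← map_mul, Subgroup.mem_center_iff.1 (hC hy) z]
  have hperf : commutator (E ⧸ K) = ⊤ := by
    have h1 : (commutator E).map q = commutator (E ⧸ K) := by
      rw [commutator_def, Subgroup.map_commutator, commutator_def]
      congr 1 <;> exact Subgroup.map_top_of_surjective _ hq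
    rw [← h1, perf]
    exact Subgroup.map_top_of_surjective _ hq
  let f : C →* π.ker := (q.comp C.subtype).codRestrict π.ker (fun z => (hker z).2 z.2)
  have hf : Function.Surjective f := by
    rintro ⟨y, hy⟩
    obtain ⟨x, rfl⟩ := hq y
    exact ⟨⟨x, (hker x).1 hy⟩, rfl⟩
  have hkf : f.ker ≤ l.ker := by
    intro z hz
    have h1 : q (z : E) = 1 := congrArg Subtype.val (MonoidHom.mem_ker.1 hz)
    obtain ⟨w, hw, hwz⟩ := (hq1 _).1 h1
    have : w = z := Subtype.ext hwz
    rwa [← this]
  let l' : π.ker →* ℂˣ := f.liftOfSurjective hf ⟨l, hkf⟩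
  have hl' : ∀ z, l' (f z) = l z := fun z => MonoidHom.liftOfRightInverse_comp_apply _ _ _ _ _
  have hinj : Function.Injective l' := by
    rw [injective_iff_map_eq_one]
    intro z hz
    obtain ⟨z, rfl⟩ := hf z
    rw [hl'] at hz
    apply Subtype.ext
    exact (hq1 _).2 ⟨z, hz, rfl⟩
  have hcard : ¬ p ∣ Nat.card π.ker := fun hd => pC (hd.trans (Subgroup.card_dvd_of_surjective f hf))
  -- a character of degree divisible by `p`
  have key : ∃ χ : E ⧸ K → ℂ, IsIrrCharacter (E ⧸ K) χ ∧ (∀ z : π.ker, χ z = χ 1 * l' z) ∧ p ∣ charDegree χ := by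
    by_cases htwo : 2 ≤ Nat.card π.ker
    · exact hNB (Nat.card π.ker) htwo hcard (E ⧸ K) π hπ hcen hperf rfl l' hinj
    · have h1 : Nat.card π.ker = 1 := by
        have : 0 < Nat.card π.ker := Nat.card_pos
        omega
      have h2 : π.ker = ⊥ := Subgroup.eq_bot_of_card_eq _ h1
      have hbij : Function.Bijective π := ⟨(MonoidHom.ker_eq_bot_iff π).1 h2, hπ⟩
      let e : E ⧸ K ≃* S := MulEquiv.ofBijective π hbij
      have hs : IsSimpleGroup (E ⧸ K) := e.isSimpleGroup
      have h0 : ∀ w ∈ π.ker, w = 1 := by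
        rw [h2]
        intro w hw
        exact Subgroup.mem_bot.1 hw
      by_contra hcon
      push Not at hcon
      obtain ⟨P, hP⟩ := him (G := E ⧸ K) (fun χ hχ hd => hcon χ hχ (fun z => by
        have h3 : z = 1 := Subtype.ext (h0 z z.2)
        rw [h3, map_one, Units.val_one, mul_one]
        rfl) hd)
      have hpE : p ∣ Nat.card (E ⧸ K) := by
        rw [Nat.card_congr e.toEquiv]
        exact pS
      rcases hP.eq_bot_or_eq_top with h3 | h3
      · exact P.ne_bot_of_dvd_card hpE h3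
      · have h4 : IsPGroup p (E ⧸ K) := by
          have h5 := P.isPGroup'
          rw [h3] at h5
          exact h5.of_surjective (Subgroup.topEquiv (G := E ⧸ K)).toMonoidHom Subgroup.topEquiv.surjective
        have h5 : Nontrivial (Subgroup.center (E ⧸ K)) := h4.center_nontrivial
        rcases (inferInstance : (Subgroup.center (E ⧸ K)).Normal).eq_bot_or_eq_top with h6 | h6
        · rw [Subgroup.nontrivial_iff_ne_bot] at h5
          exact h5 h6
        · apply na
          refine ⟨⟨fun a b => ?_⟩⟩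
          apply e.symm.injective
          have h7 : e.symm b ∈ Subgroup.center (E ⧸ K) := by rw [h6]; trivial
          rw [map_mul, map_mul]
          exact Subgroup.mem_center_iff.1 h7 _
  obtain ⟨χ, hχ, hov, hd⟩ := key
  refine bad (χ ∘ q) (isIrr_comp q hq hχ) ?_ ?_
  · intro n
    have h1 := hov (f ⟨n, hN n.2⟩)
    rw [hl', hl n n.2] at h1
    change χ (q n) = χ (q 1) * _
    rw [map_one]
    exact h1
  · rw [charDegree_comp_one]
    exact hd

/-- **the push-up** -/
theorem push {p : ℕ} [hp : Fact p.Prime] (him : IM.{u} p) {H : Type u} [Group H] [Finite H]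
    (perf : commutator H = ⊤) {K F N : Subgroup H} [K.Normal] [F.Normal] (cen : N ≤ Subgroup.center H) (NF : N ≤ F)
    (FK : F ≤ K) {φ : N →* ℂˣ} (bad : Bad p N φ) (pK : ¬ p ∣ Nat.card K) (hcen : ∀ k ∈ K, ∀ h : H, ⁅k, h⁆ ∈ F)
    {ψ : F → ℂ} (hψ : IsIrrCharacter F ψ) (hinv : inertia F ψ = ⊤)
    (hov : ∀ n (hn : n ∈ N), ψ ⟨n, NF hn⟩ = ψ 1 * φ ⟨n, hn⟩) [IsSimpleGroup (H ⧸ K)]
    (na : ¬ IsMulCommutative (H ⧸ K)) (pS : p ∣ Nat.card (H ⧸ K)) (hNB : NBall.{u} p (H ⧸ K)) : False := by
  classical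
  obtain ⟨Δ, Q, _, _, _, π, m, Z, l, hπ, hm, hcomap, hZc, hrel, hpr⟩ := exists_triple' (p := p) F hψ hinv
  have hmem : ∀ x : Δ, π x ∈ F ↔ m x ∈ Z := fun x => by
    rw [← Subgroup.mem_comap, hcomap, Subgroup.mem_comap]
  -- the characters of `H` over `ψ`
  have hrelF : RelP p F.subtype ψ := by
    intro χ hχ hovχ hd
    refine bad χ hχ ?_ ((dvd_mul_right p _).trans hd)
    have h1 : Over (Subgroup.inclusion NF) ψ (lf φ) := by
      rw [over_lin_iff (Subgroup.inclusion NF) (fun n => by
        rw [Subgroup.mem_center_iff]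
        intro y
        exact Subtype.ext (Subgroup.mem_center_iff.1 (cen n.2) y)) hψ]
      intro n
      exact hov n n.2
    have h2 : Over (F.subtype.comp (Subgroup.inclusion NF)) χ (lf φ) :=
      (over_comp_iff F.subtype (Subgroup.inclusion NF) (isIrr_isCharacter hχ) (isIrr_lf φ)).2 ⟨ψ, hψ, hovχ, h1⟩
    exact (over_lin_iff (F.subtype.comp (Subgroup.inclusion NF)) (fun n => cen n.2) hχ φ).1 h2
  have hrelZ := hrel hrelF
  have hbQ : Bad p Z l := by
    intro χ hχ hovχ hd
    refine hrelZ χ hχ ?_ ?_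
    · rw [over_lin_iff Z.subtype (fun z => hZc z.2) hχ]
      exact hovχ
    · rw [charDegree_lf, mul_one]
      exact hd
  -- the group `L = [Q, Q]`
  let L : Subgroup Q := commutator Q
  haveI hLn : L.Normal := inferInstance
  have hs : L ⊔ Z = ⊤ := by
    rw [eq_top_iff]
    intro y _
    obtain ⟨x, rfl⟩ := hm y
    have h1 : π x ∈ (commutator Δ).map π := by
      rw [commutator_def, Subgroup.map_commutator, Subgroup.map_top_of_surjective _ hπ, ← commutator_def, perf]
      trivial
    obtain ⟨x', hx', h2⟩ := h1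
    have h3 : m (x'⁻¹ * x) ∈ Z := by
      rw [← hmem, map_mul, map_inv, h2, inv_mul_cancel]
      exact F.one_mem
    have h4 : m x' ∈ L := by
      have h5 : m x' ∈ (commutator Δ).map m := ⟨x', hx', rfl⟩
      rwa [commutator_def, Subgroup.map_commutator, Subgroup.map_top_of_surjective _ hm, ← commutator_def] at h5
    have h5 : m x = m x' * m (x'⁻¹ * x) := by rw [← map_mul, mul_inv_cancel_left]
    rw [h5]
    exact Subgroup.mul_mem_sup h4 h3
  have hbL : Bad p (Z.subgroupOf L) (resL L l) := bad_resL hZc hs hbQ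
  have hperfL : commutator L = ⊤ := by
    have h1 : L ≤ (commutator L).map L.subtype := by
      rw [Subgroup.map_subtype_commutator]
      show commutator Q ≤ _
      rw [commutator_def, Subgroup.commutator_le]
      intro a _ b _
      have ha : a ∈ L ⊔ Z := by rw [hs]; trivial
      have hb : b ∈ L ⊔ Z := by rw [hs]; trivial
      obtain ⟨a, ha', z, hz, rfl⟩ := Subgroup.mem_sup_of_normal_left.1 ha
      obtain ⟨b, hb', w, hw, rfl⟩ := Subgroup.mem_sup_of_normal_left.1 hb
      rw [comm_central hZc hz hw]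
      exact Subgroup.commutator_mem_commutator ha' hb'
    rw [eq_top_iff]
    intro x _
    obtain ⟨y, hy, h2⟩ := h1 x.2
    rwa [← Subtype.ext h2]
  -- the map onto `S`
  let mkK : H →* H ⧸ K := QuotientGroup.mk' K
  have hmkK : Function.Surjective mkK := QuotientGroup.mk'_surjective K
  have hkm : m.ker ≤ (mkK.comp π).ker := by
    intro x hx
    rw [MonoidHom.mem_ker]
    show mkK (π x) = 1
    rw [← MonoidHom.mem_ker, QuotientGroup.ker_mk']
    apply FK
    rw [hmem, MonoidHom.mem_ker.1 hx]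
    exact Z.one_mem
  let g : Q →* H ⧸ K := m.liftOfSurjective hm ⟨mkK.comp π, hkm⟩
  have hg : ∀ x, g (m x) = mkK (π x) := fun x => MonoidHom.liftOfRightInverse_comp_apply _ _ _ _ _
  have hgZ : ∀ z ∈ Z, g z = 1 := by
    intro z hz
    obtain ⟨x, rfl⟩ := hm z
    rw [hg, ← MonoidHom.mem_ker, QuotientGroup.ker_mk']
    exact FK ((hmem x).2 hz)
  have hgker : ∀ x, m x ∈ g.ker ↔ π x ∈ K := by
    intro x
    rw [MonoidHom.mem_ker, hg, ← MonoidHom.mem_ker, QuotientGroup.ker_mk']
  let π0 : L →* H ⧸ K := g.comp L.subtype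
  have hπ0 : Function.Surjective π0 := by
    intro y
    obtain ⟨h, rfl⟩ := hmkK y
    obtain ⟨x, rfl⟩ := hπ h
    have h1 : m x ∈ L ⊔ Z := by rw [hs]; trivial
    obtain ⟨a, ha, z, hz, h2⟩ := Subgroup.mem_sup_of_normal_left.1 h1
    refine ⟨⟨a, ha⟩, ?_⟩
    show g a = _
    rw [← hg, ← h2, map_mul, hgZ z hz, mul_one]
  have hC : π0.ker ≤ Subgroup.center L := by
    intro c hc
    refine Cfsg.Agent.H20.NX.mem_center_of_perfect hperfL (N := Z.subgroupOf L) ?_ ?_
    · intro z hz
      rw [Subgroup.mem_center_iff]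
      intro y
      exact Subtype.ext (Subgroup.mem_center_iff.1 (hZc hz) y)
    · intro y
      show ((⁅c, y⁆ : L) : Q) ∈ Z
      obtain ⟨x, hx⟩ := hm (c : Q)
      obtain ⟨x', hx'⟩ := hm (y : Q)
      have h1 : ((⁅c, y⁆ : L) : Q) = m ⁅x, x'⁆ := by
        rw [map_commutatorElement, hx, hx']
        rfl
      rw [h1, ← hmem, map_commutatorElement]
      refine hcen _ ?_ _
      rw [← hgker, hx]
      exact hc
  have hpg : ¬ p ∣ Nat.card g.ker := by
    have hZg : Z ≤ g.ker := fun z hz => hgZ z hz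
    have h1 : Nat.card g.ker = Nat.card Z * Z.relIndex g.ker := by
      rw [← Subgroup.relIndex_bot_left, ← Subgroup.relIndex_bot_left]
      exact (Subgroup.relIndex_mul_relIndex ⊥ Z g.ker bot_le hZg).symm
    rw [h1, hp.out.dvd_mul]
    rintro (h2 | h2)
    · exact pK ((hpr p hp.out h2).trans (Subgroup.card_dvd_of_le FK))
    · have h3 : g.ker = (K.comap π).map m := by
        ext y
        obtain ⟨x, rfl⟩ := hm y
        rw [hgker]
        constructor
        · intro h
          exact ⟨x, h, rfl⟩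
        · rintro ⟨x', hx', h4⟩
          rw [← hgker, ← h4, hgker]
          exact hx'
      rw [h3, ← Subgroup.relIndex_comap, ← hcomap, Subgroup.relIndex_comap,
        Subgroup.map_comap_eq_self_of_surjective hπ] at h2
      exact pK (h2.trans (Subgroup.relIndex_dvd_card F K))
  have hpC : ¬ p ∣ Nat.card π0.ker := by
    intro hd
    apply hpg
    refine hd.trans ?_
    have h1 : Nat.card (π0.ker.map L.subtype) = Nat.card π0.ker :=
      Subgroup.card_map_of_injective L.subtype_injective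
    rw [← h1]
    apply Subgroup.card_dvd_of_le
    rintro _ ⟨x, hx, rfl⟩
    exact hx
  exact not_bad_cen him na pS hNB hperfL π0 hπ0 hC hpC (N := Z.subgroupOf L) (fun z hz => hgZ z hz) hbL

/-- the push-up from an invariant character of `K` itself -/
theorem push_top {p : ℕ} [hp : Fact p.Prime] (him : IM.{u} p) {H : Type u} [Group H] [Finite H]
    (perf : commutator H = ⊤) {K N : Subgroup H} [hK : K.Normal] (cen : N ≤ Subgroup.center H) (NK : N ≤ K)
    {φ : N →* ℂˣ} (bad : Bad p N φ) (pK : ¬ p ∣ Nat.card K)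
    {ψ : K → ℂ} (hψ : IsIrrCharacter K ψ) (hinv : inertia K ψ = ⊤)
    (hov : ∀ n (hn : n ∈ N), ψ ⟨n, NK hn⟩ = ψ 1 * φ ⟨n, hn⟩) [IsSimpleGroup (H ⧸ K)]
    (na : ¬ IsMulCommutative (H ⧸ K)) (pS : p ∣ Nat.card (H ⧸ K)) (hNB : NBall.{u} p (H ⧸ K)) : False :=
  push him perf cen NK le_rfl bad pK (fun k hk h => by
    have h1 : h * k⁻¹ * h⁻¹ ∈ K := hK.conj_mem _ (K.inv_mem hk) h
    have h2 : ⁅k, h⁆ = k * (h * k⁻¹ * h⁻¹) := by rw [commutatorElement_def]; group
    rw [h2]
    exact K.mul_mem hk h1) hψ hinv hov na pS hNB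

end Cfsg.Agent.H159.RIM
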